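import Cfsg.Agent.Lib.XC.Prin
import Cfsg.Agent.Lib.CharDeg.GlaubermanCount
import Cfsg.Agent.Lib.Clifford.Extension

/-!
# Extremely closed abelian p-subgroups: the coprime case (helper29)
-/

namespace Cfsg.Lib.XC

open Subgroup Cfsg.Lib.BG Cfsg.Lib.Transfer Cfsg.Lib.Char Cfsg.Lib.Modular Cfsg.Lib.CharDeg
open Cfsg.Lib.Clifford
open scoped Cfsg.Lib.Transfer commutatorElement ComplexConjugate

variable {G : Type*} [Group G] [Finite G] {p : ℕ} [hp : Fact p.Prime] {H K X Y : Subgroup G}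

omit hp in
/-- The values of a canonical extension on the coset `C_K(u) u`. -/
theorem exists_coset {C : Subgroup G} [K.Normal] [Fintype C]
    (hcop : (Nat.card K).Coprime K.index) {u : G} (hu : (Nat.card K).Coprime (orderOf u))
    (hC : K ⊓ 𝐂[u] = C) {χ : G → ℂ} (hχ : IsCharacter G χ)
    (hχK : IsIrrCharacter K (fun g : K => χ g)) (hdet : (detOrder χ).Coprime K.index) :
    ∃ (β : IrrCharacter C) (ε : ℂ), ε ≠ 0 ∧ ∀ c : C, χ (c * u) = ε * (β : C → ℂ) c := by
  classical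
  have hCS : ∀ c ∈ C, ∀ s ∈ zpowers u, c * s = s * c := by
    rintro c hc _ ⟨k, rfl⟩
    exact (Commute.zpow_right (mem_cent1.1 (hC.ge hc).2) k).eq
  have ho : orderOf u = Nat.card (zpowers u) := by rw [Nat.card_zpowers]
  have hμ : ∀ β : IrrCharacter C, IsCharacter (zpowers u)
      (fun x : zpowers u => cosetMult C χ β x) := fun β =>
    isCharacter_cosetMult hCS hχ β.2.isCharacter
  have hpow : ∀ (β : IrrCharacter C) (k : ℕ), k.Coprime (Nat.card (zpowers u)) →
      cosetMult C χ β (u ^ k) = cosetMult C χ β u := by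
    intro β k hk
    obtain ⟨σ, hσ1, hσ2⟩ := exists_ringEquiv_pow_fix Nat.card_pos.ne' Nat.card_pos.ne'
      (ho ▸ hu.symm) hk
    have h1 : (fun g => (σ : ℂ →+* ℂ) (χ g)) = χ := by
      refine eq_of_res_eq_of_detOrder K hχ hχK (hχ.map_ringHom _) (fun g => ?_) ?_ hdet ?_
      · exact hχ.isGeneralizedCharacter.map_apply_eq_self_of_dvd _ (K.orderOf_dvd_natCard g.2) hσ2
      · exact hcop.coprime_dvd_left hχK.charDegree_dvd_card
      · rw [Clifford.detOrder_map_ringHom hχ]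
        exact hdet
    have h2 : (fun c => (σ : ℂ →+* ℂ) ((β : C → ℂ) c)) = β := funext fun c =>
      β.2.isGeneralizedCharacter.map_apply_eq_self_of_dvd _ ((orderOf_dvd_natCard c).trans
        (Subgroup.card_dvd_of_le (hC.ge.trans inf_le_left))) hσ2
    have h3 := (hμ β).isGeneralizedCharacter.map_apply_eq_pow_of_dvd (σ : ℂ →+* ℂ)
      (orderOf_dvd_natCard (⟨u, mem_zpowers u⟩ : zpowers u)) hσ1
    refine h3.symm.trans ?_
    unfold cosetMult
    rw [← classInner_map_ringHom _ _ β.2.isGeneralizedCharacter, h2]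
    simp only [congrFun h1]
  have hint : ∀ β : IrrCharacter C, ∃ n : ℤ, cosetMult C χ β u = n := fun β =>
    (hμ β).isGeneralizedCharacter.exists_int_of_forall_pow (g := ⟨u, mem_zpowers u⟩) fun k hk =>
      hpow β k (by rwa [← ho, ← Subgroup.orderOf_mk _ (mem_zpowers u)])
  choose n hn using hint
  have hsum := sum_norm_sq_cosetMult (C := C) (x := u) hC hu hχ hχK
  simp only [hn, Complex.norm_intCast, sq_abs] at hsum
  have hsum' : ∑ β, n β ^ 2 = 1 := by exact_mod_cast hsum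
  obtain ⟨β, -, hβ⟩ := Finset.exists_ne_zero_of_sum_ne_zero (hsum'.trans_ne one_ne_zero)
  rw [← Finset.add_sum_erase _ _ (Finset.mem_univ β)] at hsum'
  have h0 := Finset.sum_nonneg (s := Finset.univ.erase β) fun β' _ => sq_nonneg (n β')
  have h1 : 0 < n β ^ 2 := lt_of_le_of_ne (sq_nonneg _) hβ.symm
  have h2 : ∀ β' ≠ β, n β' = 0 := fun β' hne => pow_eq_zero_iff two_ne_zero |>.mp
    ((Finset.sum_eq_zero_iff_of_nonneg fun β' _ => sq_nonneg (n β')).mp (by omega) β'
      (Finset.mem_erase.mpr ⟨hne, Finset.mem_univ _⟩))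
  refine ⟨β, n β, Int.cast_ne_zero.2 (ne_zero_pow two_ne_zero hβ), fun c => ?_⟩
  rw [apply_eq_sum_cosetMult hχ.isClassFunction (fun c hc => hCS c hc _ (mem_zpowers u))]
  simp only [hn]
  rw [Finset.sum_eq_single β (fun β' _ hne => by simp [h2 β' hne]) (by simp)]

theorem P1_ext [K.Normal] (hsd : SD K H ⊤) (hK : PiGrp {p}ᶜ K) (hH : IsPGroup p H)
    (hab : IsMulCommutative H) (hloc : ∀ u ∈ H, u ≠ 1 → Good H (ncl 𝐂[u] H)) {χ : G → ℂ}
    (hχ : IsCharacter G χ) (hχK : IsIrrCharacter K (fun g : K => χ g))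
    (hdet : (detOrder χ).Coprime K.index) : P1 p H χ := by
  classical
  intro u hu hu1 F hF k hk hk' hc
  have := Fintype.ofFinite G
  have hidx : K.index = Nat.card H := by rw [← relIndex_top_right, hsd.relIndex_left]
  have hcop : (Nat.card K).Coprime (Nat.card H) := hK.coprime_pgroup hH
  have hHC : H ≤ 𝐂[u] := (abelian_cent hab).trans (cent_le_cent1 hu)
  set C := K ⊓ 𝐂[u] with hC
  obtain ⟨β, ε, hε, hβ⟩ := exists_coset (C := C) (hidx ▸ hcop)
    (hcop.coprime_dvd_right (H.orderOf_dvd_natCard hu)) rfl hχ hχK hdet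
  set L := 𝐎({p}ᶜ, ncl 𝐂[u] H) with hL
  have hL' : PiGrp {p}ᶜ L := pcore_pi _ _
  have hLn : 𝐂[u] ≤ 𝐍(L) := norm_pcore norm_ncl _
  have hLC : L ≤ C := fun x hx => ⟨mem_of_sd hsd hK hH (mem_top x) (not_dvd_of_mem hL' hx),
    ncl_le hHC (pcore_le _ _ hx)⟩
  haveI : (L.subgroupOf C).Normal :=
    (normal_subgroupOf_iff_le_normalizer hLC).2 (inf_le_right.trans hLn)
  have h1 := sum_ne_zero_of_inv hH (hHC.trans hLn) ((hloc u hu hu1).inf_cent hH (pcore_le _ _) hL')
    (f := fun x : L => (β : C → ℂ) ⟨x, hLC x.2⟩) (fun s x => by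
      refine mul_left_cancel₀ hε ?_
      rw [← hβ, ← hβ, ← hχ.isClassFunction.conj_apply (x * u) s]
      congr 1
      simp only [coe_conjAut]
      have : u * s = s * u := (mem_cent1.1 (hHC s.2)).symm
      rw [mul_assoc, mul_assoc, mul_assoc, mul_assoc, mul_right_inj, mul_right_inj,
        inv_mul_eq_iff_eq_mul, ← mul_assoc, ← this, mul_inv_cancel_right])
    (fun x => β.2.isIntegral _) β.2.apply_one_eq
    (fun hd => PiGrp.p'_iff.1 hK (hd.trans (β.2.charDegree_dvd_card.trans (card_dvd inf_le_left))))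
  have h2 : classInner (fun n : L.subgroupOf C => (β : C → ℂ) n) (fun _ => 1) ≠ 0 := by
    rw [classInner_one_right]
    refine mul_ne_zero (inv_ne_zero (card_ne_zero_complex _)) ?_
    rwa [Fintype.sum_equiv (subgroupOfEquivOfLe hLC).toEquiv
      (fun n : L.subgroupOf C => (β : C → ℂ) n)
      (fun x : L => (β : C → ℂ) ⟨x, hLC x.2⟩) fun _ => rfl]
  have hkL : k ∈ L := loc_mem hH hab hu (hloc u hu hu1) hF hk hk' hc
  have h3 := (classInner_res_one_ne_zero_iff (L.subgroupOf C) β.2).1 h2 ⟨k, hLC hkL⟩ hkL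
  have h4 := hβ ⟨k, hLC hkL⟩
  have h5 := hβ 1
  rw [h3, ← h5] at h4
  rw [hc.eq]
  simpa using h4

theorem exists_inv_irr (hn : H ≤ 𝐍(K)) (hH : IsPGroup p H) (h : K ⊓ 𝐂(H) ≠ ⊥) :
    ∃ θ : K → ℂ, IsIrrCharacter K θ ∧ θ ≠ (fun _ => 1) ∧
      ∀ (s : H) (k : K), θ (conjAut hn s k) = θ k := by
  by_contra hc
  push Not at hc
  obtain ⟨c, hcK, hc1⟩ := exists_ne_one h
  have hfix : ∀ s : H, conjAut hn s ⟨c, hcK.1⟩ = ⟨c, hcK.1⟩ :=
    (conjAut_fixed_iff hn _).2 hcK.2
  obtain ⟨z, hz, e⟩ := exists_sum_eq_sum_fixed_add_integral (p := p) hH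
    (irrPermAut.comp (conjAut hn)) (fun _ : Unit => irrOne K) (fun _ _ _ => rfl) (fun θ => by
      constructor
      · intro h
        by_contra hne
        obtain ⟨s, k, hs⟩ := hc θ θ.2 fun e => hne ⟨(), Subtype.ext e.symm⟩
        exact hs ((irrPermAut_eq_iff _ _).1 (h s) k)
      · rintro ⟨_, rfl⟩ s
        rfl)
    (fun θ => (θ : K → ℂ) 1 * (θ : K → ℂ) ⟨c, hcK.1⟩) (fun s θ => by
      simp only [MonoidHom.comp_apply, irrPermAut_apply, map_one]
      rw [(MulEquiv.symm_apply_eq _).2 (hfix s).symm])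
    (fun θ => (θ.2.isIntegral _).mul (θ.2.isIntegral _))
  rw [sum_irr_apply_one_mul_apply_of_ne_one (fun e => hc1 (congrArg Subtype.val e))] at e
  simp only [Finset.univ_unique, Finset.sum_const, Finset.card_singleton, one_smul, coe_irrOne,
    mul_one] at e
  have := natCast_zmod_eq_of_isIntegral (p := p) hp.out.ne_zero (a := 0) (b := 1) hz
    (by rw [Nat.cast_zero, Nat.cast_one]; exact e)
  simp at this

/-- The coprime case. -/
theorem inf_cent_of_min (hp2 : p ≠ 2) (h : XCl H) (hH : IsPGroup p H)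
    (hab : IsMulCommutative H) (h1 : H ≠ ⊥) (hloc : ∀ u ∈ H, u ≠ 1 → Good H (ncl 𝐂[u] H))
    (hX : Good H X) (hY : Good H Y) (hXY : X ⊔ Y = ⊤) (hsd : SD K H ⊤) (hK : PiGrp {p}ᶜ K) :
    K ⊓ 𝐂(H) = ⊥ := by
  classical
  have := Fintype.ofFinite G
  by_contra hne
  haveI hKn : K.Normal := normalizer_eq_top_iff.1 (top_le_iff.1 hsd.nml.norm)
  obtain ⟨θ, hθ, hθ1, hinv⟩ := exists_inv_irr hsd.norm hH hne
  have hidx : K.index = Nat.card H := by rw [← relIndex_top_right, hsd.relIndex_left]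
  have hcop : K.index.Coprime (Nat.card K) := hidx ▸ (hK.coprime_pgroup hH).symm
  have hin : inertia K θ = ⊤ := top_le_iff.1 (hsd.sup.ge.trans (sup_le
    (le_inertia K hθ.isClassFunction) fun s hs => (mem_inertia_iff K).2 fun k => hinv ⟨s, hs⟩ k))
  obtain ⟨χ, hχ, hres, hdet⟩ := exists_extension_detOrder_eq K hθ ((inertia_eq_top_iff K).1 hin)
    (coprime_detOrder_mul_charDegree K hθ hcop)
  have hres' : (fun g : K => χ g) = θ := funext hres
  have hχK : IsIrrCharacter K (fun g : K => χ g) := hres' ▸ hθ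
  have hP := P1_ext hsd hK hH hab hloc hχ.isCharacter hχK
    (hdet ▸ (hcop.coprime_dvd_right (detOrder_dvd_card θ)).symm)
  have hd : ⁅(⊤ : Subgroup G), ⊤⁆ ≤ K := by
    have := hsd.der_le
    rwa [abelian_iff_der.1 hab, sup_bot_eq] at this
  haveI := isMulCommutative_quotient_of_commutator K fun x y =>
    hd (comm_mem_comm (mem_top x) (mem_top y))
  let ψ : IrrCharacter (G ⧸ K) → G → ℂ := fun β => (fun g : G => (β : G ⧸ K → ℂ) g) * χ
  have hψ : ∀ β ∈ Finset.univ, IsIrrCharacter G (ψ β) := fun β _ =>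
    isIrrCharacter_inflate_mul K hχ.isCharacter hχK β.2
  have hmk : ∀ r : G, ¬ p ∣ orderOf r → (r : G ⧸ K) = 1 := fun r hr =>
    (QuotientGroup.eq_one_iff r).2 (mem_of_sd hsd hK hH (mem_top r) hr)
  have h3 := identity h hH hab hψ (fun β _ u hu hu1 F hF k hk hk' hc => by
      simp only [ψ, Pi.mul_apply, hP u hu hu1 F hF k hk hk' hc, QuotientGroup.mk_mul, hmk k hk',
        mul_one]) (fun r hr u hu hu1 => by
      have h4 : ¬ IsConj (1 : G ⧸ K) u := by
        rw [isConj_one_right, QuotientGroup.eq_one_iff]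
        intro huK
        exact hu1 (mem_bot.1 (hsd.inf.le ⟨huK, hu⟩))
      have h5 := sum_irr_mul_conj_of_not_isConj h4
      simp only [ψ, Pi.mul_apply, hmk r hr, map_mul]
      rw [Finset.sum_congr rfl (g := fun β : IrrCharacter (G ⧸ K) => χ r * conj (χ u) *
        ((β : G ⧸ K → ℂ) 1 * conj ((β : G ⧸ K → ℂ) u))) fun β _ => by ring, ← Finset.mul_sum, h5,
        mul_zero])
  have hq : (3 : ℝ) ≤ Nat.card H := by exact_mod_cast three_le hp2 hH h1
  have hpos : ∀ β, 0 < (Nat.card H : ℝ) - 2 - av H (ψ β) / charDegree (ψ β) := fun β => by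
    obtain ⟨m, hm, hle⟩ := half hp2 hX hY hXY hH hab (hψ β (Finset.mem_univ _)) fun e => hθ1 (by
      funext k
      have h6 := congrFun e k
      simp only [ψ, Pi.mul_apply, (QuotientGroup.eq_one_iff _).2 k.2, β.2.apply_one_of_comm,
        one_mul] at h6
      rw [← hres, h6])
    have h5 : (2 : ℝ) * m ≤ charDegree (ψ β) := by exact_mod_cast hle
    have h6 : (0 : ℝ) < charDegree (ψ β) := by
      exact_mod_cast (hψ β (Finset.mem_univ _)).charDegree_pos
    have h7 : av H (ψ β) / charDegree (ψ β) ≤ Nat.card H / 2 - 1 := by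
      rw [div_le_iff₀ h6, av_eq (hψ β (Finset.mem_univ _)).isCharacter hm]
      nlinarith
    linarith
  have h4 := (Finset.sum_eq_zero_iff_of_nonneg fun β _ =>
    mul_nonneg (sq_nonneg _) (hpos β).le).1 h3 (irrOne _) (Finset.mem_univ _)
  have h5 := pow_eq_zero_iff two_ne_zero |>.1 ((mul_eq_zero.1 h4).resolve_right (hpos _).ne')
  have h6 : ψ (irrOne _) = χ := by
    funext g
    simp [ψ]
  obtain ⟨m, hm⟩ := exists_sum_eq (H := H) hχ.isCharacter
  rw [h6, av_eq hχ.isCharacter hm, sub_eq_zero] at h5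
  have h7 : Nat.card H * m = charDegree χ := by exact_mod_cast h5
  refine PiGrp.p'_iff.1 hK (((pgroup_dvd_card hH h1).trans ⟨m, h7.symm⟩).trans ?_)
  exact hχK.charDegree_dvd_card

end Cfsg.Lib.XC
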