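import Cfsg.Agent.Lib.XC.Grp
import Cfsg.Agent.Lib.CharDeg.OrbitSum
import Cfsg.Agent.Lib.Clifford.Correspondence

/-!
# Extremely closed abelian p-subgroups: fixed spaces (helper29)
-/

namespace Cfsg.Lib.XC

open Subgroup Cfsg.Lib.BG Cfsg.Lib.Transfer Cfsg.Lib.Char Cfsg.Lib.CharDeg Cfsg.Lib.Clifford
open Cfsg.Lib.Induce Module
open scoped Cfsg.Lib.Transfer commutatorElement ComplexConjugate

variable {G : Type*} [Group G] [Fintype G] {p : ℕ} [hp : Fact p.Prime] {H X Y F K : Subgroup G}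

omit [Fintype G] in
/-- An invariant function with integral values under a fixed point free `p`-group. -/
theorem sum_ne_zero_of_inv [Fintype K] (hH : IsPGroup p H) (hn : H ≤ 𝐍(K)) (hc : K ⊓ 𝐂(H) = ⊥)
    {f : K → ℂ} (hf : ∀ (s : H) (k : K), f (conjAut hn s k) = f k)
    (hi : ∀ k, IsIntegral ℤ (f k)) {n : ℕ} (h1 : f 1 = n) (hpn : ¬ p ∣ n) : ∑ k, f k ≠ 0 := by
  intro h0
  obtain ⟨z, hz, e⟩ := exists_sum_eq_sum_fixed_add_integral (p := p) hH
    ((MulAut.toPerm K).comp (conjAut hn)) (fun _ : Unit => (1 : K))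
    (fun _ _ _ => rfl) (fun x => by
      constructor
      · intro h
        have h2 : (x : G) ∈ K ⊓ 𝐂(H) := ⟨x.2, (conjAut_fixed_iff hn x).1 h⟩
        rw [hc, mem_bot] at h2
        exact ⟨(), Subtype.ext h2.symm⟩
      · rintro ⟨_, rfl⟩ s
        exact map_one (conjAut hn s)) f hf hi
  rw [h0] at e
  simp only [Finset.univ_unique, Finset.sum_const, Finset.card_singleton, one_smul, h1] at e
  have := natCast_zmod_eq_of_isIntegral (p := p) hp.out.ne_zero (a := n) (b := 0) hz.neg
    (by rw [Nat.cast_zero]; linear_combination -e)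
  rw [Nat.cast_zero, ZMod.natCast_eq_zero_iff] at this
  exact hpn this

omit [Fintype G] hp in
theorem re_sum_le {χ : G → ℂ} [Finite G] (hχ : IsCharacter G χ) {ι : Type*} (s : Finset ι)
    (f : ι → G) : (∑ i ∈ s, χ (f i)).re ≤ s.card * (χ 1).re := by
  rw [Complex.re_sum, ← nsmul_eq_mul]
  refine Finset.sum_le_card_nsmul _ _ _ fun i _ => ?_
  refine (Complex.re_le_norm _).trans ((hχ.norm_le _).trans ?_)
  rw [hχ.norm_apply_one, hχ.re_apply_one]

omit hp in
theorem re_sum_irr_nonneg {χ : G → ℂ} (hχ : IsIrrCharacter G χ) : 0 ≤ (∑ g, χ g).re := by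
  by_cases h : χ = fun _ => 1
  · subst h
    simp
  · rw [hχ.sum_eq_zero h]
    simp

open Classical in
theorem fix_irr (h : Good H ⊤) (hH : IsPGroup p H) (hab : IsMulCommutative H) {ψ : G → ℂ}
    (hψ : IsIrrCharacter G ψ) :
    p * Nat.card G * (∑ x : H, ψ x).re ≤
      Nat.card G * Nat.card H * (ψ 1).re + (p - 1) * Nat.card H * (∑ g, ψ g).re := by
  have hsd := h.sd hH hab
  set K := 𝐎({p}ᶜ, (⊤ : Subgroup G)) with hK
  have hKp : PiGrp {p}ᶜ K := pcore_pi _ _
  haveI : K.Normal := normalizer_eq_top_iff.1 (top_le_iff.1 hsd.nml.norm)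
  have hp1 : (1 : ℝ) ≤ p := by exact_mod_cast hp.out.one_le
  have hq : (0 : ℝ) < Nat.card H := by exact_mod_cast Nat.card_pos
  have hG : (0 : ℝ) < Nat.card G := by exact_mod_cast Nat.card_pos
  have hn : 0 ≤ (ψ 1).re := by rw [hψ.isCharacter.re_apply_one]; positivity
  rcases homogeneous_or_induced K hψ with ⟨θ, e, hθ, he, hres⟩ | ⟨T, φ, hKT, hT, hφ, rfl⟩
  · have hinv := invariant_of_res_eq_smul K hψ.isClassFunction
      (Nat.cast_ne_zero.2 he.ne') hres
    have hθ1 : θ = fun _ => 1 := by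
      by_contra hne
      refine sum_ne_zero_of_inv hH hsd.norm (h.inf_cent hH le_top hKp) (f := θ)
        (fun s k => hinv s k) hθ.isIntegral hθ.apply_one_eq ?_ (hθ.sum_eq_zero hne)
      exact fun hd => PiGrp.p'_iff.1 hKp (hd.trans hθ.charDegree_dvd_card)
    have hker : ∀ k : K, ψ k = ψ 1 := fun k => by
      have h1 := congrFun hres k
      have h2 := congrFun hres 1
      simp only [hθ1, Pi.smul_apply, smul_eq_mul, mul_one, coe_one] at h1 h2
      rw [h1, h2]
    have hc : IsComplement' K H := by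
      refine isComplement'_of_disjoint_and_mul_eq_univ (disjoint_iff.2 hsd.inf)
        (Set.eq_univ_of_forall fun x => ?_)
      obtain ⟨k, hk, y, hy, rfl⟩ := hsd.mem (mem_top x)
      exact Set.mul_mem_mul hk hy
    have hsum : ∑ g, ψ g = Nat.card K * ∑ x : H, ψ x := by
      rw [← Function.Bijective.sum_comp hc ψ, Fintype.sum_prod_type]
      simp only [fun (k : K) (x : H) => hψ.isCharacter.apply_mul_of_apply_eq (hker k) x]
      simp
    have hcard : (Nat.card G : ℝ) = Nat.card K * Nat.card H := by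
      exact_mod_cast hc.card_mul.symm
    have h1 := re_sum_le hψ.isCharacter Finset.univ (fun x : H => (x : G))
    rw [Finset.card_univ, ← Nat.card_eq_fintype_card] at h1
    have hk : (0 : ℝ) < Nat.card K := by exact_mod_cast Nat.card_pos
    rw [hsum, hcard]
    simp only [Complex.mul_re, Complex.natCast_re, Complex.natCast_im, zero_mul, sub_zero]
    nlinarith [mul_le_mul_of_nonneg_left h1 (mul_pos hk hq).le]
  · have hd : ⁅(⊤ : Subgroup G), ⊤⁆ ≤ T := by
      have := hsd.der_le
      rw [abelian_iff_der.1 hab, sup_bot_eq] at this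
      exact this.trans hKT
    haveI : T.Normal := normalizer_eq_top_iff.1 (top_le_iff.1
      (norm_of_comm_le_of_le hd le_top))
    have hHT : ¬ H ≤ T := fun hle => hT (top_le_iff.1 (hsd.sup.ge.trans (sup_le hKT hle)))
    have h1 : p * Nat.card ↥(T ⊓ H) ≤ Nat.card H := by
      rw [← BG.card_mul_relIndex (inf_le_right : T ⊓ H ≤ H), mul_comm]
      refine Nat.mul_le_mul_left _ (Nat.le_of_dvd (Nat.pos_of_ne_zero
        (FiniteIndex.index_ne_zero)) ?_)
      obtain ⟨k, hk⟩ := hH.index ((T ⊓ H).subgroupOf H)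
      rw [relIndex, hk]
      refine dvd_pow_self _ ?_
      rintro rfl
      rw [pow_zero, index_eq_one, subgroupOf_eq_top] at hk
      exact hHT (hk.trans inf_le_left)
    have h2 : ∑ x : H, indFun T φ x =
        ∑ x ∈ Finset.univ.filter (fun x : H => (x : G) ∈ T), indFun T φ x := by
      rw [Finset.sum_filter]
      refine Finset.sum_congr rfl fun x _ => ?_
      split_ifs with hx
      · rfl
      · exact indFun_normal_of_not_mem T φ hx
    have h3 := re_sum_le hψ.isCharacter (Finset.univ.filter fun x : H => (x : G) ∈ T)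
      (fun x : H => (x : G))
    have h4 : (Finset.univ.filter fun x : H => (x : G) ∈ T).card = Nat.card ↥(T ⊓ H) := by
      rw [← Nat.card_eq_finsetCard]
      refine Nat.card_congr ⟨fun x => ⟨x.1.1, (Finset.mem_filter.1 x.2).2, x.1.2⟩,
        fun x => ⟨⟨x.1, x.2.2⟩, Finset.mem_filter.2 ⟨Finset.mem_univ _, x.2.1⟩⟩,
        fun _ => rfl, fun _ => rfl⟩
    rw [h4, ← h2] at h3
    have h5 := re_sum_irr_nonneg hψ
    have h6 : (p : ℝ) * Nat.card ↥(T ⊓ H) ≤ Nat.card H := by exact_mod_cast h1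
    have h7 : (p : ℝ) * (∑ x : H, indFun T φ x).re ≤ Nat.card H * (indFun T φ 1).re := by
      nlinarith [mul_le_mul_of_nonneg_left h3 (le_trans zero_le_one hp1),
        mul_le_mul_of_nonneg_right h6 hn]
    nlinarith [mul_le_mul_of_nonneg_left h7 hG.le,
      mul_nonneg (mul_nonneg (sub_nonneg.2 hp1) hq.le) h5]

open Classical in
theorem fix_top (h : Good H ⊤) (hH : IsPGroup p H) (hab : IsMulCommutative H) {χ : G → ℂ}
    (hχ : IsCharacter G χ) :
    p * Nat.card G * (∑ x : H, χ x).re ≤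
      Nat.card G * Nat.card H * (χ 1).re + (p - 1) * Nat.card H * (∑ g, χ g).re := by
  refine hχ.induction_on (P := fun χ : G → ℂ => p * Nat.card G * (∑ x : H, χ x).re ≤
      Nat.card G * Nat.card H * (χ 1).re + (p - 1) * Nat.card H * (∑ g, χ g).re) (by simp) ?_
  intro ψ φ hψ _ ih
  have := fix_irr h hH hab hψ
  simp only [Pi.add_apply, Finset.sum_add_distrib, Complex.add_re]
  linarith

open Classical in
theorem fix_le (h : Good H X) (hH : IsPGroup p H) (hab : IsMulCommutative H) {χ : G → ℂ}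
    (hχ : IsCharacter G χ) {n m x : ℕ} (hn : χ 1 = n) (hm : ∑ y : H, χ y = Nat.card H * m)
    (hx : ∑ y : X, χ y = Nat.card X * x) : p * m + x ≤ n + p * x := by
  have e := subgroupOfEquivOfLe h.le
  have h1 : Good (H.subgroupOf X) ⊤ := by
    rw [← good_map_iff (f := X.subtype) (by simp) le_top, map_subgroupOf_eq_of_le h.le,
      ← MonoidHom.range_eq_map, range_subtype]
    exact h
  have h2 := fix_top h1 (hH.of_equiv (subgroupOfEquivOfLe h.le).symm)
    (by infer_instance) (hχ.restrict X)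
  have h3 : ∑ y : H.subgroupOf X, χ ((y : X) : G) = ∑ y : H, χ y :=
    Fintype.sum_equiv (subgroupOfEquivOfLe h.le).toEquiv _ _ fun _ => rfl
  rw [h3, Nat.card_congr (subgroupOfEquivOfLe h.le).toEquiv, hm, hx] at h2
  simp only [coe_one, hn, Complex.mul_re, Complex.natCast_re, Complex.natCast_im, zero_mul,
    sub_zero] at h2
  have hq : (0 : ℝ) < Nat.card H := by exact_mod_cast Nat.card_pos
  have hX : (0 : ℝ) < Nat.card X := by exact_mod_cast Nat.card_pos
  have h4 : (p : ℝ) * m + x ≤ n + p * x := by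
    refine le_of_mul_le_mul_left ?_ (mul_pos hq hX)
    nlinarith
  exact_mod_cast h4

omit hp in
open Classical in
theorem sum_eq_finrank {V : Type*} [AddCommGroup V] [Module ℂ V] [FiniteDimensional ℂ V]
    (ρ : Representation ℂ G V) (X : Subgroup G) : ∑ y : X, ρ.character y =
      Nat.card X * finrank ℂ (Representation.invariants (ρ.comp X.subtype)) := by
  rw [← classInner_character_one, card_mul_classInner]
  simp [character_comp]

omit hp in
open Classical in
theorem fix_add (hX : H ≤ X) (hY : H ≤ Y) (hXY : X ⊔ Y = ⊤) {χ : G → ℂ}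
    (hχ : IsIrrCharacter G χ) (h1 : χ ≠ fun _ => 1) : ∃ m x y : ℕ,
      ∑ g : H, χ g = Nat.card H * m ∧ ∑ g : X, χ g = Nat.card X * x ∧
        ∑ g : Y, χ g = Nat.card Y * y ∧ x + y ≤ m := by
  have h0 := hχ.sum_eq_zero h1
  obtain ⟨n, ρ, -, rfl⟩ := hχ
  refine ⟨_, _, _, sum_eq_finrank ρ H, sum_eq_finrank ρ X, sum_eq_finrank ρ Y, ?_⟩
  have h2 : ρ.invariants = ⊥ := by
    have := classInner_character_one ρ
    rw [classInner_one_right, h0, mul_zero] at this
    exact Submodule.finrank_eq_zero.1 (by exact_mod_cast this.symm)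
  have h3 : Representation.invariants (ρ.comp X.subtype) ⊓
      Representation.invariants (ρ.comp Y.subtype) = ⊥ := by
    rw [eq_bot_iff, ← h2]
    intro v hv g
    have hg : g ∈ X ⊔ Y := hXY ▸ mem_top g
    rw [sup_eq_closure] at hg
    induction hg using closure_induction with
    | mem x hx =>
      rcases hx with hx | hx
      · exact hv.1 ⟨x, hx⟩
      · exact hv.2 ⟨x, hx⟩
    | one => simp
    | mul x y _ _ hx hy => rw [map_mul, Module.End.mul_apply, hy, hx]
    | inv x _ hx =>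
      conv_lhs => rw [← hx]
      rw [← Module.End.mul_apply, ← map_mul, inv_mul_cancel, map_one, Module.End.one_apply]
  rw [← Submodule.finrank_sup_add_finrank_inf_eq, h3, finrank_bot, add_zero]
  refine Submodule.finrank_mono (sup_le ?_ ?_)
  · exact fun v hv g => hv ⟨g, hX g.2⟩
  · exact fun v hv g => hv ⟨g, hY g.2⟩

open Classical in
/-- The fixed space of `H` has at most half the dimension. -/
theorem half (hp2 : p ≠ 2) (hX : Good H X) (hY : Good H Y) (hXY : X ⊔ Y = ⊤) (hH : IsPGroup p H)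
    (hab : IsMulCommutative H) {χ : G → ℂ} (hχ : IsIrrCharacter G χ) (h1 : χ ≠ fun _ => 1) :
    ∃ m : ℕ, ∑ g : H, χ g = Nat.card H * m ∧ 2 * m ≤ charDegree χ := by
  obtain ⟨m, x, y, hm, hx, hy, h⟩ := fix_add hX.le hY.le hXY hχ h1
  have h2 := fix_le hX hH hab hχ.isCharacter hχ.apply_one_eq hm hx
  have h3 := fix_le hY hH hab hχ.isCharacter hχ.apply_one_eq hm hy
  have h4 : 3 ≤ p := by have := hp.out.two_le; omega
  refine ⟨m, hm, ?_⟩
  obtain ⟨r, rfl⟩ := Nat.exists_eq_add_of_le h4
  nlinarith [Nat.mul_le_mul_left r h, Nat.zero_le (r * m)]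

end Cfsg.Lib.XC
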