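import Cfsg.Agent.Lib.BG.T01_Cyclic
import Cfsg.Agent.Lib.Modular.PPart
import Cfsg.Prelude.Def_SubgroupEmbedding

/-!
# Extremely closed abelian p-subgroups: the group theory (helper29)
-/

namespace Cfsg.Lib.XC

open Subgroup Cfsg.Lib.BG Cfsg.Lib.Transfer Cfsg.Lib.Modular
open scoped Cfsg.Lib.Transfer commutatorElement

variable {G : Type*} [Group G] {Q : Type*} [Group Q] {p : ℕ} {H X Y F K : Subgroup G}

/-- `H` is a self-normalizing subgroup of `X`. -/
structure Good (H X : Subgroup G) : Prop where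
  le : H ≤ X
  inf : X ⊓ 𝐍(H) ≤ H

theorem Good.of_le (h : Good H X) (h1 : H ≤ F) (h2 : F ≤ X) : Good H F :=
  ⟨h1, le_trans (inf_le_inf_right _ h2) h.inf⟩

theorem Good.self (H : Subgroup G) : Good H H := ⟨le_rfl, inf_le_left⟩

/-- Every subgroup generated by `H` and one conjugate is good. -/
def XCl (H : Subgroup G) : Prop := ∀ g : G, Good H (H ⊔ g ⋆ H)

theorem xcl_of (h : IsExtremelyClosed H) : XCl H := fun g => ⟨le_sup_left, (h g).le⟩

/-- The normal closure of `H` in `X`. -/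
def ncl (X H : Subgroup G) : Subgroup G := ⨆ x : X, (x : G) ⋆ H

theorem conj_le_ncl {x : G} (hx : x ∈ X) : x ⋆ H ≤ ncl X H :=
  le_iSup (fun x : X => (x : G) ⋆ H) ⟨x, hx⟩

theorem le_ncl : H ≤ ncl X H := by
  have := conj_le_ncl (H := H) X.one_mem
  rwa [conj_one] at this

theorem ncl_le_of (h : ∀ x ∈ X, x ⋆ H ≤ Y) : ncl X H ≤ Y := iSup_le fun x => h x x.2

theorem ncl_le (h : H ≤ X) : ncl X H ≤ X := ncl_le_of fun _ hx => conj_le_of_mem h hx

theorem ncl_mono (h : X ≤ Y) : ncl X H ≤ ncl Y H := ncl_le_of fun _ hx => conj_le_ncl (h hx)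

theorem norm_ncl : X ≤ 𝐍(ncl X H) := by
  have key : ∀ x ∈ X, x ⋆ ncl X H ≤ ncl X H := fun x hx => by
    rw [conj_le_iff_le_inv_conj]
    refine ncl_le_of fun y hy => ?_
    rw [← conj_le_iff_le_inv_conj, conj_conj]
    exact conj_le_ncl (X.mul_mem hx hy)
  refine le_norm_of_conj fun x hx => le_antisymm (key x hx) ?_
  rw [le_conj_iff_inv_conj_le]
  exact key _ (X.inv_mem hx)

theorem ncl_top : ncl ⊤ H = normalClosure (H : Set G) := by
  apply le_antisymm
  · refine ncl_le_of fun x _ => conj_le_iff.2 fun h hh => ?_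
    exact normalClosure_normal.conj_mem _ (subset_normalClosure hh) x
  · have : (ncl ⊤ H).Normal := normalizer_eq_top_iff.1 (top_le_iff.1 norm_ncl)
    exact normalClosure_le_normal le_ncl

theorem map_conj' (f : G →* Q) (g : G) (H : Subgroup G) : (g ⋆ H).map f = f g ⋆ H.map f := by
  rw [map_map, map_map]
  congr 1
  ext x
  simp

theorem map_ncl (f : G →* Q) (X H : Subgroup G) : (ncl X H).map f = ncl (X.map f) (H.map f) := by
  apply le_antisymm
  · rw [map_le_iff_le_comap]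
    refine ncl_le_of fun x hx => ?_
    rw [← map_le_iff_le_comap, map_conj']
    exact conj_le_ncl (mem_map_of_mem f hx)
  · refine ncl_le_of ?_
    rintro _ ⟨x, hx, rfl⟩
    rw [← map_conj']
    exact map_mono (conj_le_ncl hx)

theorem mem_of_map_mem {f : G →* Q} (hf : f.ker ≤ H) {x : G} (hx : f x ∈ H.map f) : x ∈ H := by
  have : x ∈ (H.map f).comap f := hx
  rwa [comap_map_eq, sup_eq_left.2 hf] at this

theorem good_map_iff {f : G →* Q} (hf : f.ker ≤ H) (hX : H ≤ X) :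
    Good (H.map f) (X.map f) ↔ Good H X := by
  constructor
  · intro h
    refine ⟨hX, fun x hx => mem_of_map_mem hf (h.inf ⟨mem_map_of_mem f hx.1, ?_⟩)⟩
    exact map_norm f (le_refl 𝐍(H)) (mem_map_of_mem f hx.2)
  · intro h
    refine ⟨map_mono hX, ?_⟩
    rintro _ ⟨⟨x, hx, rfl⟩, hn⟩
    refine mem_map_of_mem f (h.inf ⟨hx, ?_⟩)
    have e : f x ⋆ H.map f = H.map f := conj_eq_of_norm hn
    have e' : f x⁻¹ ⋆ H.map f = H.map f := by
      rw [map_inv]; exact conj_eq_of_norm (inv_mem hn)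
    rw [← map_conj'] at e e'
    refine norm_of_conj_eq (le_antisymm ?_ ?_)
    · exact fun y hy => mem_of_map_mem hf (e ▸ mem_map_of_mem f hy)
    · rw [le_conj_iff_inv_conj_le]
      exact fun y hy => mem_of_map_mem hf (e' ▸ mem_map_of_mem f hy)

theorem XCl.of_map {f : G →* Q} (hf : f.ker ≤ H) (h : XCl (H.map f)) : XCl H := fun g => by
  rw [← good_map_iff hf le_sup_left, Subgroup.map_sup, map_conj']
  exact h _

theorem XCl.map {f : G →* Q} (hf : f.ker ≤ H) (hs : Function.Surjective f) (h : XCl H) :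
    XCl (H.map f) := fun y => by
  obtain ⟨g, rfl⟩ := hs y
  rw [← map_conj', ← Subgroup.map_sup, good_map_iff hf le_sup_left]
  exact h g

theorem good_ncl_map_iff {f : G →* Q} (hf : f.ker ≤ H) :
    Good (H.map f) (ncl (X.map f) (H.map f)) ↔ Good H (ncl X H) := by
  rw [← map_ncl, good_map_iff hf le_ncl]

variable [Finite G] [hp : Fact p.Prime]

theorem Good.syl (h : Good H X) (hH : IsPGroup p H) : Syl p H X := by
  apply Syl.of_norm
  have : X ⊓ 𝐍(H) = H := le_antisymm h.inf (le_inf h.le (le_norm H))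
  rw [this]
  exact Syl.of_max le_rfl hH fun Q _ _ h => h

theorem Good.sd (h : Good H X) (hH : IsPGroup p H) (hab : IsMulCommutative H) :
    SD 𝐎({p}ᶜ, X) H X :=
  Burnside_normal_complement (h.syl hH) (h.inf.trans (abelian_cent hab))

theorem Good.le_ncl (h : Good H X) (hH : IsPGroup p H) : X ≤ ncl X H := by
  have h1 : Syl p H (ncl X H) := (h.of_le XC.le_ncl (ncl_le h.le)).syl hH
  have h2 := h1.frattini ⟨ncl_le h.le, norm_ncl⟩
  exact h2.ge.trans (sup_le le_rfl (h.inf.trans XC.le_ncl))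

theorem Good.inf_cent (h : Good H X) (hH : IsPGroup p H) (hK : K ≤ X) (hK' : PiGrp {p}ᶜ K) :
    K ⊓ 𝐂(H) = ⊥ := by
  have h1 : K ⊓ 𝐂(H) ≤ K ⊓ H :=
    le_inf inf_le_left (le_trans (inf_le_inf hK (cent_le_norm H)) h.inf)
  have h2 : K ⊓ H = ⊥ := by
    rw [inf_comm]
    exact PiGrp.inf_eq_bot (PiGrp.p_iff.2 hH) hK'
  exact eq_bot_mono h2 h1

theorem mem_of_sd (h : SD K H X) (hK : PiGrp {p}ᶜ K) (hH : IsPGroup p H) {x : G} (hx : x ∈ X)
    (hx' : ¬ p ∣ orderOf x) : x ∈ K := by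
  have : Hall {p}ᶜ K X := (Hall.of_sd h hK (by rw [compl_compl]; exact PiGrp.p_iff.2 hH)).1
  exact this.mem_of_normal h.nml.norm hx (PiNat.p'_iff.2 hx')

theorem not_dvd_of_mem (hK : PiGrp {p}ᶜ K) {x : G} (hx : x ∈ K) : ¬ p ∣ orderOf x := fun hd =>
  PiNat.p'_iff.1 hK (hd.trans (by simpa using orderOf_dvd_natCard (⟨x, hx⟩ : K)))

theorem syl_of_sd (h : SD K H X) (hK : PiGrp {p}ᶜ K) (hH : IsPGroup p H) : Syl p H X :=
  Syl.mk' h.right_le hH (by rw [h.relIndex_right]; exact PiNat.p'_iff.1 hK)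

/-- The normal form of the elements of `K ⋊ H` up to conjugacy. -/
theorem conj_form (h : SD K H X) (hK : PiGrp {p}ᶜ K) (hH : IsPGroup p H)
    (hab : IsMulCommutative H) {u r : G} (hu : u ∈ H) (hr : r ∈ K) :
    ∃ k ∈ K, Commute u k ∧ IsConj (u * r) (u * k) := by
  set w := u * r with hw
  have hwX : w ∈ X := X.mul_mem (h.right_le hu) (h.left_le hr)
  have haX : pPart p w ∈ X := pPart_mem p hwX
  have hbK : regPart p w ∈ K :=
    mem_of_sd h hK hH (regPart_mem p hwX) (not_dvd_orderOf_regPart hp.out w)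
  obtain ⟨f, hf, hfa⟩ := (syl_of_sd h hK hH).exists_conj_le
    (isPGroup_zpowers hp.out (pElt_pPart hp.out w)) (zpowers_le.2 haX)
  have h1 : f * pPart p w * f⁻¹ ∈ H := conj_le_iff.1 hfa _ (mem_zpowers _)
  have hd : ⁅X, X⁆ ≤ K := by
    have := h.der_le
    rwa [abelian_iff_der.1 hab, sup_bot_eq] at this
  have h2 : f * pPart p w * f⁻¹ * (pPart p w)⁻¹ ∈ K := hd (comm_mem_comm hf haX)
  have h3 : u⁻¹ * (f * pPart p w * f⁻¹) ∈ K ⊓ H := by
    refine ⟨?_, H.mul_mem (H.inv_mem hu) h1⟩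
    have e : u⁻¹ * (f * pPart p w * f⁻¹) =
        (u⁻¹ * (f * pPart p w * f⁻¹ * (pPart p w)⁻¹) * u) * r * (regPart p w)⁻¹ := by
      have : pPart p w = u * r * (regPart p w)⁻¹ := rfl
      rw [mul_assoc (u⁻¹ * _) u r, mul_assoc (u⁻¹ * _), ← this]
      group
    rw [e]
    exact K.mul_mem (K.mul_mem (conj_mem_of_norm' (h.norm hu) h2) hr) (K.inv_mem hbK)
  rw [h.inf, mem_bot, inv_mul_eq_one] at h3
  refine ⟨f * regPart p w * f⁻¹, conj_mem_of_norm (h.nml.norm hf) hbK, ?_, ?_⟩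
  · rw [h3]
    have := (commute_pPart_regPart p w).map (MulAut.conj f).toMonoidHom
    simpa using this
  · rw [isConj_iff]
    refine ⟨f, ?_⟩
    conv_rhs => rw [h3]
    conv_lhs => rw [← pPart_mul_regPart p w]
    group

theorem XCl.exists_conj (h : XCl H) (hH : IsPGroup p H) (g : G) :
    ∃ f ∈ H ⊔ g ⋆ H, g ⋆ H = f ⋆ H := by
  have h1 := (h g).syl hH
  exact h1.exists_conj_eq (h1.of_card_le' (isPGroup_conj hH g) le_sup_right (card_conj g H).ge)

theorem XCl.ncl_ncl (h : XCl H) (hH : IsPGroup p H) (X : Subgroup G) :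
    ncl (ncl X H) H = ncl X H := by
  refine le_antisymm (ncl_le le_ncl) (ncl_le_of fun x hx => ?_)
  obtain ⟨f, hf, e⟩ := h.exists_conj hH x
  rw [e]
  exact conj_le_ncl (sup_le le_ncl (conj_le_ncl hx) hf)

/-- A minimal counterexample is generated by two good subgroups. -/
theorem XCl.exists_gen (h : XCl H) (hH : IsPGroup p H) (htop : ncl ⊤ H = ⊤)
    (ih : ∀ X : Subgroup G, H ≤ X → X ≠ ⊤ → Good H (ncl X H)) (hn : ¬ Good H ⊤) :
    ∃ X Y : Subgroup G, Good H X ∧ Good H Y ∧ X ⊔ Y = ⊤ := by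
  obtain ⟨X, hX, hmax⟩ := (Set.toFinite {X : Subgroup G | Good H X}).exists_maximal
    ⟨H, Good.self H⟩
  have hX' : Good H X := hX
  have hne : X ≠ ⊤ := fun e => hn (e ▸ hX')
  obtain ⟨g, hg⟩ : ∃ g : G, ¬ g ⋆ H ≤ X := by
    by_contra hc
    push Not at hc
    exact hne (top_le_iff.1 (htop ▸ ncl_le_of fun x _ => hc x))
  refine ⟨X, H ⊔ g ⋆ H, hX', h g, ?_⟩
  by_contra hZ
  have h1 := ih _ (hX'.le.trans le_sup_left) hZ
  have h2 : X ≤ ncl (X ⊔ (H ⊔ g ⋆ H)) H := (hX'.le_ncl hH).trans (ncl_mono le_sup_left)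
  obtain ⟨f, hf, e⟩ := h.exists_conj hH g
  apply hg
  rw [e]
  exact (conj_le_ncl (mem_sup_right hf)).trans (hmax h1 h2)

end Cfsg.Lib.XC
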