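import Cfsg.Agent.Lib.XC.Fix

/-!
# Extremely closed abelian p-subgroups: the character identity (helper29)
-/

namespace Cfsg.Lib.XC

open Subgroup Cfsg.Lib.BG Cfsg.Lib.Transfer Cfsg.Lib.Char Cfsg.Lib.Modular
open scoped Cfsg.Lib.Transfer commutatorElement ComplexConjugate

variable {G : Type*} [Group G] [Fintype G] {p : ℕ} [hp : Fact p.Prime] {H : Subgroup G}

open Classical in
/-- The sum of `χ` over the nonidentity elements of `H`. -/
noncomputable def av (H : Subgroup G) (χ : G → ℂ) : ℝ := ((∑ u : H, χ u) - χ 1).re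

omit hp in
open Classical in
theorem av_eq {χ : G → ℂ} (hχ : IsCharacter G χ) {m : ℕ} (hm : ∑ u : H, χ u = Nat.card H * m) :
    av H χ = Nat.card H * m - charDegree χ := by
  rw [av, hm, hχ.apply_one_eq]
  simp

omit hp in
open Classical in
theorem exists_sum_eq {χ : G → ℂ} (hχ : IsCharacter G χ) :
    ∃ m : ℕ, ∑ u : H, χ u = Nat.card H * m := by
  obtain ⟨m, hm⟩ := (hχ.restrict H).exists_inner_eq_nat isCharacter_one
  refine ⟨m, ?_⟩
  rw [← hm, card_mul_classInner]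
  simp

omit hp in
open Classical in
theorem coe_av {χ : G → ℂ} (hχ : IsCharacter G χ) : (av H χ : ℂ) = (∑ u : H, χ u) - χ 1 := by
  obtain ⟨m, hm⟩ := exists_sum_eq (H := H) hχ
  rw [av_eq hχ hm, hm, hχ.apply_one_eq]
  simp

omit hp in
open Classical in
theorem coe_av' {χ : G → ℂ} (hχ : IsCharacter G χ) :
    (av H χ : ℂ) = ∑ u ∈ Finset.univ.erase (1 : H), χ u := by
  rw [coe_av hχ, ← Finset.add_sum_erase _ _ (Finset.mem_univ (1 : H))]
  simp

/-- Values on `p`-sections through good subgroups. -/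
def P1 (p : ℕ) (H : Subgroup G) (χ : G → ℂ) : Prop :=
  ∀ u ∈ H, u ≠ 1 → ∀ F : Subgroup G, Good H F → ∀ k ∈ F, ¬ p ∣ orderOf k → Commute u k →
    χ (u * k) = χ u

open Classical in
theorem exists_reg (h : XCl H) (hH : IsPGroup p H) (hab : IsMulCommutative H) (g : G) (y : H) :
    ∃ r : G, ¬ p ∣ orderOf r ∧ ∀ χ : G → ℂ, IsCharacter G χ → P1 p H χ →
      ∑ x : H, χ (g * y * g⁻¹ * x) = av H χ + χ r := by
  have hsd := (h g).sd hH hab
  have hK : PiGrp {p}ᶜ 𝐎({p}ᶜ, H ⊔ g ⋆ H) := pcore_pi _ _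
  obtain ⟨t, ht, r, hr, e⟩ := hsd.mem' (mem_sup_right (conj_mem_conj.2 y.2) :
    g * y * g⁻¹ ∈ H ⊔ g ⋆ H)
  refine ⟨r, not_dvd_of_mem hK hr, fun χ hχ h1 => ?_⟩
  have h2 : ∑ x : H, χ (g * y * g⁻¹ * x) = ∑ x : H, χ (x * r) := by
    refine Fintype.sum_equiv (Equiv.mulRight (⟨t, ht⟩ : H)) _ _ fun x => ?_
    rw [← e, hχ.isClassFunction.mul_comm]
    simp [mul_assoc]
  rw [h2, coe_av' hχ, ← Finset.add_sum_erase _ _ (Finset.mem_univ (1 : H)), add_comm]
  congr 1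
  · refine Finset.sum_congr rfl fun u hu => ?_
    obtain ⟨k, hk, hc, hj⟩ := conj_form hsd hK hH hab u.2 hr
    rw [hχ.isClassFunction.eq_of_isConj hj]
    exact h1 u u.2 (fun e => Finset.ne_of_mem_erase hu (Subtype.ext e)) _ (h g) k
      (hsd.left_le hk) (not_dvd_of_mem hK hk) hc
  · simp

variable {ι : Type*} {s : Finset ι} {χ : ι → G → ℂ}

omit hp in
theorem sum_mul_av (hχ : ∀ i ∈ s, IsIrrCharacter G (χ i)) {r : G}
    (h2 : ∀ u ∈ H, u ≠ 1 → ∑ i ∈ s, χ i r * conj (χ i u) = 0) :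
    ∑ i ∈ s, χ i r * av H (χ i) = 0 := by
  classical
  have : ∀ i ∈ s, χ i r * av H (χ i) = ∑ u ∈ Finset.univ.erase (1 : H), χ i r * conj (χ i u) := by
    intro i hi
    rw [← Complex.conj_ofReal, coe_av' (hχ i hi).isCharacter, map_sum, Finset.mul_sum]
  rw [Finset.sum_congr rfl this, Finset.sum_comm]
  exact Finset.sum_eq_zero fun u hu =>
    h2 u u.2 fun e => Finset.ne_of_mem_erase hu (Subtype.ext e)

theorem sum_deg_av (hχ : ∀ i ∈ s, IsIrrCharacter G (χ i))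
    (h2 : ∀ r, ¬ p ∣ orderOf r → ∀ u ∈ H, u ≠ 1 → ∑ i ∈ s, χ i r * conj (χ i u) = 0) :
    ∑ i ∈ s, (charDegree (χ i) : ℝ) * av H (χ i) = 0 := by
  have := sum_mul_av hχ (h2 1 (not_dvd_orderOf_one hp.out))
  rw [Finset.sum_congr rfl fun i hi => by rw [(hχ i hi).apply_one_eq]] at this
  exact_mod_cast this

theorem identity (h : XCl H) (hH : IsPGroup p H) (hab : IsMulCommutative H)
    (hχ : ∀ i ∈ s, IsIrrCharacter G (χ i)) (h1 : ∀ i ∈ s, P1 p H (χ i))
    (h2 : ∀ r, ¬ p ∣ orderOf r → ∀ u ∈ H, u ≠ 1 → ∑ i ∈ s, χ i r * conj (χ i u) = 0) :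
    ∑ i ∈ s, av H (χ i) ^ 2 * (Nat.card H - 2 - av H (χ i) / charDegree (χ i)) = 0 := by
  classical
  choose r hr hr' using exists_reg h hH hab
  have hG : (Nat.card G : ℂ) ≠ 0 := card_ne_zero_complex G
  have key : ∀ i ∈ s, (Nat.card G : ℂ) * ((av H (χ i) + charDegree (χ i)) ^ 2 / charDegree (χ i)) =
      Nat.card G * (Nat.card H * av H (χ i)) + ∑ g : G, ∑ y : H, χ i (r g y) := by
    intro i hi
    have e1 : ∑ g : G, ∑ y : H, ∑ x : H, χ i (g * y * g⁻¹ * x) =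
        Nat.card G * (Nat.card H * av H (χ i)) + ∑ g : G, ∑ y : H, χ i (r g y) := by
      rw [Finset.sum_congr rfl fun g _ => Finset.sum_congr rfl fun y _ => by
        convert hr' g y (χ i) (hχ i hi).isCharacter (h1 i hi)]
      simp [Finset.sum_add_distrib]
    rw [← e1, Finset.sum_comm]
    rw [Finset.sum_congr rfl fun y _ => Finset.sum_comm]
    simp only [(hχ i hi).sum_conj_mul]
    rw [coe_av (hχ i hi).isCharacter, ← (hχ i hi).apply_one_eq, sub_add_cancel, sq,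
      Finset.sum_mul_sum, Finset.sum_div, Finset.mul_sum]
    refine Finset.sum_congr (by congr) fun y _ => ?_
    rw [Finset.sum_div, Finset.mul_sum]
    refine Finset.sum_congr (by congr) fun x _ => ?_
    ring
  have e2 : ∑ i ∈ s, (∑ g : G, ∑ y : H, χ i (r g y)) * av H (χ i) = 0 := by
    simp only [Finset.sum_mul]
    rw [Finset.sum_comm]
    refine Finset.sum_eq_zero fun g _ => ?_
    rw [Finset.sum_comm]
    exact Finset.sum_eq_zero fun y _ => sum_mul_av hχ (h2 _ (hr g y))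
  have e3 : ∑ i ∈ s, (charDegree (χ i) : ℂ) * av H (χ i) = 0 := by
    exact_mod_cast sum_deg_av hχ h2
  have e4 : (Nat.card G : ℂ) * ∑ i ∈ s, (av H (χ i) : ℂ) ^ 2 *
      (Nat.card H - 2 - av H (χ i) / charDegree (χ i)) = 0 := by
    rw [Finset.mul_sum, Finset.sum_congr rfl (g := fun i =>
      Nat.card G * ((charDegree (χ i) : ℂ) * av H (χ i)) -
        (∑ g : G, ∑ y : H, χ i (r g y)) * av H (χ i))]
    · rw [Finset.sum_sub_distrib, ← Finset.mul_sum, e2, e3]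
      simp
    · intro i hi
      have hn : (charDegree (χ i) : ℂ) ≠ 0 := Nat.cast_ne_zero.2 (hχ i hi).charDegree_pos.ne'
      rw [eq_sub_of_add_eq' (key i hi).symm]
      field_simp
      ring
  have := (mul_eq_zero.1 e4).resolve_left hG
  exact_mod_cast this

omit hp in
open Classical in
theorem sum_av_sq (hχ : ∀ i ∈ s, IsIrrCharacter G (χ i)) :
    ∑ i ∈ s, av H (χ i) ^ 2 = ∑ u ∈ Finset.univ.erase (1 : H), ∑ v ∈ Finset.univ.erase (1 : H),
      (∑ i ∈ s, χ i u * conj (χ i v)).re := by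
  have : ∀ i ∈ s, av H (χ i) ^ 2 = ∑ u ∈ Finset.univ.erase (1 : H),
      ∑ v ∈ Finset.univ.erase (1 : H), (χ i u * conj (χ i v)).re := by
    intro i hi
    have e : ((av H (χ i) ^ 2 : ℝ) : ℂ) = av H (χ i) * conj (av H (χ i) : ℂ) := by
      rw [Complex.conj_ofReal]; push_cast; ring
    rw [coe_av' (hχ i hi).isCharacter, map_sum, Finset.sum_mul_sum] at e
    have := congrArg Complex.re e
    rw [Complex.ofReal_re] at this
    rw [this, Complex.re_sum]
    exact Finset.sum_congr rfl fun u _ => Complex.re_sum _ _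
  rw [Finset.sum_congr rfl this, Finset.sum_comm]
  refine Finset.sum_congr rfl fun u _ => ?_
  rw [Finset.sum_comm]
  exact Finset.sum_congr rfl fun v _ => (Complex.re_sum _ _).symm

/-- The numerical contradiction for the principal block. -/
theorem numeric {ι : Type*} [DecidableEq ι] {s : Finset ι} {a n : ι → ℝ} {q : ℝ} {i₀ : ι}
    (hi₀ : i₀ ∈ s) (hn₀ : n i₀ = 1) (ha₀ : a i₀ = q - 1) (hq : 3 ≤ q) (hn : ∀ i ∈ s, 0 < n i)
    (ha : ∀ i ∈ s, i ≠ i₀ → a i ≤ (q / 2 - 1) * n i)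
    (h1 : ∑ i ∈ s, a i ^ 2 * (q - 2 - a i / n i) = 0) (h2 : ∑ i ∈ s, n i * a i = 0) :
    ∑ i ∈ s, a i ^ 2 < q * (q + 1) := by
  rw [← Finset.add_sum_erase _ _ hi₀, ha₀] at h1 h2 ⊢
  rw [hn₀] at h1 h2
  obtain ⟨j, hj, hj'⟩ : ∃ j ∈ s.erase i₀, a j < 0 := by
    by_contra hc
    push Not at hc
    have := Finset.sum_nonneg fun i (hi : i ∈ s.erase i₀) =>
      mul_nonneg (hn i (Finset.mem_of_mem_erase hi)).le (hc i hi)
    linarith
  have h3 : ∑ i ∈ s.erase i₀, a i ^ 2 * (q / 2 - 1) <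
      ∑ i ∈ s.erase i₀, a i ^ 2 * (q - 2 - a i / n i) := by
    refine Finset.sum_lt_sum (fun i hi => ?_) ⟨j, hj, ?_⟩
    · have h4 := hn i (Finset.mem_of_mem_erase hi)
      have h5 : a i / n i ≤ q / 2 - 1 :=
        (div_le_iff₀ h4).2 (ha i (Finset.mem_of_mem_erase hi) (Finset.ne_of_mem_erase hi))
      exact mul_le_mul_of_nonneg_left (by linarith) (sq_nonneg _)
    · have h4 := hn j (Finset.mem_of_mem_erase hj)
      have h5 : a j / n j < 0 := div_neg_of_neg_of_pos hj' h4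
      exact mul_lt_mul_of_pos_left (by linarith) (by nlinarith)
  rw [← Finset.sum_mul] at h3
  by_contra hc
  push Not at hc
  have h6 : 3 * q - 1 ≤ ∑ i ∈ s.erase i₀, a i ^ 2 := by nlinarith
  have h7 := mul_le_mul_of_nonneg_right h6 (show 0 ≤ q / 2 - 1 by linarith)
  rw [div_one] at h1
  nlinarith

end Cfsg.Lib.XC
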