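import Cfsg.Agent.Lib.XC.Cop

/-!
# Extremely closed abelian p-subgroups, p odd (helper29)
-/

namespace Cfsg.Lib.XC

open Subgroup Cfsg.Lib.BG Cfsg.Lib.Transfer
open scoped Cfsg.Lib.Transfer commutatorElement

universe u

variable {p : ℕ} [hp : Fact p.Prime]

theorem good_aux (hp2 : p ≠ 2) (n : ℕ) : ∀ (G : Type u) [Group G] [Finite G], Nat.card G = n →
    ∀ H : Subgroup G, IsPGroup p H → IsMulCommutative H → XCl H → Good H (ncl ⊤ H) := by
  induction n using Nat.strong_induction_on with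
  | _ n ih =>
  intro G _ _ hn H hH hab h
  have ihX : ∀ X : Subgroup G, H ≤ X → X ≠ ⊤ → Good H (ncl X H) := fun X hX hne => by
    have e : (H.subgroupOf X).map X.subtype = H := map_subgroupOf_eq_of_le hX
    have h1 := ih _ (hn ▸ (card_lt_of_lt (lt_top_iff_ne_top.2 hne)).trans_eq card_top) X rfl
      (H.subgroupOf X) (hH.of_equiv (subgroupOfEquivOfLe hX).symm) inferInstance
      (XCl.of_map (f := X.subtype) (by simp) (e.symm ▸ h))
    rwa [← good_ncl_map_iff (f := X.subtype) (by simp), e, ← MonoidHom.range_eq_map,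
      range_subtype] at h1
  by_cases htop : ncl ⊤ H = ⊤
  swap
  · have := ihX _ le_ncl htop
    rwa [h.ncl_ncl hH] at this
  by_cases hZ : H ⊓ center G = ⊥
  swap
  · set Z := H ⊓ center G with hZ'
    haveI : Z.Normal := ⟨fun z hz g => by
      rwa [mem_center_iff.1 hz.2 g, mul_inv_cancel_right]⟩
    have hker : (QuotientGroup.mk' Z).ker ≤ H := by
      rw [QuotientGroup.ker_mk']; exact inf_le_left
    have hs := QuotientGroup.mk'_surjective Z
    have hlt : Nat.card (G ⧸ Z) < n := by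
      rw [← hn, card_eq_card_quotient_mul_card_subgroup Z]
      exact lt_mul_of_one_lt_right Nat.card_pos ((one_lt_card_iff_ne_bot Z).2 hZ)
    have h1 := ih _ hlt (G ⧸ Z) rfl (H.map (QuotientGroup.mk' Z)) (hH.map _)
      (abelian_map _ hab) (h.map hker hs)
    rwa [← map_top_of_surjective _ hs, good_ncl_map_iff hker] at h1
  rw [htop]
  by_contra hc
  have h1 : H ≠ ⊥ := by
    rintro rfl
    refine hc ⟨le_top, inf_le_left.trans (htop.ge.trans (ncl_le_of fun x _ => ?_))⟩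
    rw [Subgroup.map_bot]
  have hloc : ∀ u ∈ H, u ≠ 1 → Good H (ncl 𝐂[u] H) := fun u hu hu1 => by
    refine ihX _ ((abelian_cent hab).trans (cent_le_cent1 hu)) fun e => hu1 ?_
    refine mem_bot.1 (hZ.le ⟨hu, mem_center_iff.2 fun g => ?_⟩)
    exact mem_cent1.1 (e.ge (mem_top g))
  obtain ⟨X, Y, hX, hY, hXY⟩ := h.exists_gen hH htop ihX hc
  obtain ⟨hN, hS⟩ := syl_of_min hp2 h hH hab h1 hloc hX hY hXY
  have hsd := Burnside_normal_complement hS (inf_le_right.trans hN)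
  have h2 := inf_cent_of_min hp2 h hH hab h1 hloc hX hY hXY hsd (pcore_pi _ _)
  refine hc ⟨le_top, fun x hx => ?_⟩
  obtain ⟨k, hk, y, hy, rfl⟩ := hsd.mem (mem_top x)
  have h3 : k ∈ 𝐂(H) := by
    have := 𝐂(H).mul_mem (hN hx.2) (𝐂(H).inv_mem (abelian_cent hab hy))
    rwa [mul_inv_cancel_right] at this
  rw [mem_bot.1 (h2.le ⟨hk, h3⟩), one_mul]
  exact hy

theorem main {G : Type u} [Group G] [Finite G] (hp2 : p ≠ 2) (H : Subgroup G)
    (hH : IsPGroup p H) (hab : IsMulCommutative H) (h : IsExtremelyClosed H) :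
    normalClosure (H : Set G) ⊓ 𝐍(H) = H ∧ 𝐍(H) ⊔ pPrimeCore p G = ⊤ := by
  have h1 := good_aux hp2 _ G rfl H hH hab (xcl_of h)
  refine ⟨ncl_top (H := H) ▸ le_antisymm h1.inf (le_inf h1.le (le_norm H)), ?_⟩
  have hn : Nml (ncl ⊤ H) ⊤ := ⟨le_top, norm_ncl⟩
  have h2 := (h1.syl hH).frattini hn
  have h3 := hn.pcore_le {p}ᶜ
  rw [pcore_p'_eq p ⊤, Core.pPrimeCoreOf_top] at h3
  refine top_le_iff.1 (h2.ge.trans (sup_le ?_ (inf_le_right.trans le_sup_left)))
  exact (h1.sd hH hab).sup.ge.trans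
    (sup_le (h3.trans le_sup_right) ((le_norm H).trans le_sup_left))

end Cfsg.Lib.XC
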