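import Cfsg.Agent.Lib.XC.Id
import Cfsg.Agent.Lib.Modular.Principal
import Cfsg.Agent.S0925

/-!
# Extremely closed abelian p-subgroups: the principal block (helper29)
-/

namespace Cfsg.Lib.XC

open Subgroup Cfsg.Lib.BG Cfsg.Lib.Transfer Cfsg.Lib.Char Cfsg.Lib.Modular
open scoped Cfsg.Lib.Transfer commutatorElement ComplexConjugate

variable {G : Type*} [Group G] {p : ℕ} [hp : Fact p.Prime] {H X Y : Subgroup G} {M : Ideal AlgInt}

theorem mul_card_le [Finite G] {A P : Subgroup G} (hP : IsPGroup p P) (h : A ≤ P) (h' : ¬ P ≤ A) :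
    p * Nat.card A ≤ Nat.card P := by
  rw [← BG.card_mul_relIndex h, mul_comm]
  refine Nat.mul_le_mul_left _ (Nat.le_of_dvd (Nat.pos_of_ne_zero
    (FiniteIndex.index_ne_zero)) ?_)
  obtain ⟨k, hk⟩ := hP.index (A.subgroupOf P)
  rw [relIndex, hk]
  refine dvd_pow_self _ ?_
  rintro rfl
  rw [pow_zero, index_eq_one, subgroupOf_eq_top] at hk
  exact h' hk

theorem loc_mem [Finite G] (hH : IsPGroup p H) (hab : IsMulCommutative H) {u : G} (hu : u ∈ H)
    (h : Good H (ncl 𝐂[u] H)) {F : Subgroup G} (hF : Good H F) {k : G} (hk : k ∈ F)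
    (hk' : ¬ p ∣ orderOf k) (hc : Commute u k) : k ∈ 𝐎({p}ᶜ, ncl 𝐂[u] H) := by
  have h1 : Good H (F ⊓ 𝐂[u]) :=
    hF.of_le (le_inf hF.le ((abelian_cent hab).trans (cent_le_cent1 hu))) inf_le_left
  refine mem_of_sd (h.sd hH hab) (pcore_pi _ _) hH ?_ hk'
  exact ncl_mono inf_le_right (h1.le_ncl hH ⟨hk, mem_cent1.2 hc.eq.symm⟩)

theorem P1_principal [Finite G] (hM : IsPModular p M) (hH : IsPGroup p H)
    (hab : IsMulCommutative H) (hloc : ∀ u ∈ H, u ≠ 1 → Good H (ncl 𝐂[u] H))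
    {χ : IrrCharacter G} (hχ : χ ∈ principalBlock M G) : P1 p H χ := by
  intro u hu hu1 F hF k hk hk' hc
  refine Cfsg.Agent.S0942.result p M hM u (pElt_of_mem hp.out hH hu) k ?_ χ hχ
  have h1 := loc_mem hH hab hu (hloc u hu hu1) hF hk hk' hc
  have h2 : Nml (ncl 𝐂[u] H) 𝐂[u] :=
    ⟨ncl_le ((abelian_cent hab).trans (cent_le_cent1 hu)), norm_ncl⟩
  have h3 := h2.pcore_le {p}ᶜ h1
  rwa [pcore_p'_eq] at h3

open Classical in
theorem card_le_sum_sq [Finite G] (hM : IsPModular p M) {P : Subgroup G} (hP : IsPGroup p P) :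
    (Nat.card P : ℝ) ≤ ∑ χ with χ ∈ principalBlock M G, ‖(χ : G → ℂ) 1‖ ^ 2 := by
  set s : Finset (IrrCharacter G) := Finset.univ.filter (· ∈ principalBlock M G) with hs
  have hρ : IsCharacter G (∑ χ ∈ s, (charDegree (χ : G → ℂ) : ℂ) • (χ : G → ℂ)) :=
    isCharacter_sum _ _ fun χ _ => χ.2.isCharacter.natCast_smul _
  have h1 := card_dvd_charDegree_of_vanish hρ P fun g hg hg1 => by
    have := sum_block_mul_conj_eq_zero hM (isPBlock_principalBlock (G := G) M)
      (not_dvd_orderOf_one hp.out) (dvd_orderOf_of_pElt (pElt_of_mem hp.out hP (P.inv_mem hg))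
        (inv_ne_one.2 hg1))
    rw [← this, Finset.sum_apply]
    refine Finset.sum_congr rfl fun χ _ => ?_
    rw [χ.2.apply_inv, Complex.conj_conj, χ.2.apply_one_eq, Pi.smul_apply, smul_eq_mul]
  have h2 : charDegree (∑ χ ∈ s, (charDegree (χ : G → ℂ) : ℂ) • (χ : G → ℂ)) =
      ∑ χ ∈ s, charDegree (χ : G → ℂ) ^ 2 := by
    apply charDegree_eq_of_apply_one
    rw [Finset.sum_apply]
    push_cast
    refine Finset.sum_congr rfl fun χ _ => ?_
    rw [Pi.smul_apply, χ.2.apply_one_eq, smul_eq_mul, sq]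
  rw [h2] at h1
  have h3 := Nat.le_of_dvd (Finset.sum_pos (fun χ _ => pow_pos χ.2.charDegree_pos 2)
    ⟨irrOne G, Finset.mem_filter.2 ⟨Finset.mem_univ _, irrOne_mem_principalBlock hM⟩⟩) h1
  rw [Finset.sum_congr rfl fun χ _ => by rw [χ.2.isCharacter.norm_apply_one]]
  exact_mod_cast h3

open Classical in
/-- The columns of the principal block. -/
noncomputable def col (M : Ideal AlgInt) [Finite G] (u v : G) : ℝ :=
  (∑ χ with χ ∈ principalBlock M G, (χ : G → ℂ) u * conj ((χ : G → ℂ) v)).re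

open Classical in
theorem col_self [Finite G] (hM : IsPModular p M) {u : G} (hu : ∃ k : ℕ, orderOf u = p ^ k)
    (hu1 : u ≠ 1) {P : Subgroup G} (hP : IsPGroup p P) (h : P ≤ 𝐂[u]) :
    (Nat.card P : ℝ) ≤ col M u u := by
  have h1 := (Cfsg.Agent.S0947.result p M hM u hu hu1 1 (not_dvd_orderOf_one hp.out)).1
  rw [finsum_mem_irr_eq_sum_filter, finsum_mem_irr_eq_sum_filter] at h1
  have h2 := card_le_sum_sq hM (hP.of_equiv (subgroupOfEquivOfLe h).symm)
  rw [Nat.card_congr (subgroupOfEquivOfLe h).toEquiv] at h2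
  refine h2.trans (h1.ge.trans (le_of_eq ?_))
  rw [col, Complex.re_sum]
  refine Finset.sum_congr rfl fun χ _ => ?_
  rw [Complex.mul_conj, Complex.ofReal_re, Complex.normSq_eq_norm_sq]
  simp

omit hp in
theorem col_conj [Finite G] {u v : G} (h : IsConj u v) : col M u v = col M u u := by
  unfold col
  congr 1
  exact Finset.sum_congr rfl fun χ _ => by rw [χ.2.isClassFunction.eq_of_isConj h]

theorem col_nonneg [Finite G] (hM : IsPModular p M) {u v : G} (hu : ∃ k : ℕ, orderOf u = p ^ k)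
    (hv : ∃ k : ℕ, orderOf v = p ^ k) : 0 ≤ col M u v := by
  by_cases h : IsConj u v
  · rw [col_conj h, col, Complex.re_sum]
    refine Finset.sum_nonneg fun χ _ => ?_
    rw [Complex.mul_conj, Complex.ofReal_re]
    exact Complex.normSq_nonneg _
  · have := (Cfsg.Agent.S0925.result p M hM).2 u v u v (isPPart_self hp.out hu)
      (isPPart_self hp.out hv) h _ (isPBlock_principalBlock M)
    rw [finsum_mem_irr_eq_sum_filter] at this
    simp only [fun χ : IrrCharacter G => χ.2.apply_inv v] at this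
    rw [col, this]
    simp

theorem three_le (hp2 : p ≠ 2) [Finite G] (hH : IsPGroup p H) (h1 : H ≠ ⊥) : 3 ≤ Nat.card H := by
  have := Nat.le_of_dvd Nat.card_pos (pgroup_dvd_card hH h1)
  have := hp.out.two_le
  omega

open Classical in
theorem sum_col_lt [Fintype G] (hM : IsPModular p M) (hp2 : p ≠ 2) (h : XCl H) (hH : IsPGroup p H)
    (hab : IsMulCommutative H) (h1 : H ≠ ⊥) (hloc : ∀ u ∈ H, u ≠ 1 → Good H (ncl 𝐂[u] H))
    (hX : Good H X) (hY : Good H Y) (hXY : X ⊔ Y = ⊤) :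
    ∑ u ∈ Finset.univ.erase (1 : H), ∑ v ∈ Finset.univ.erase (1 : H), col M (u : G) v <
      Nat.card H * (Nat.card H + 1) := by
  set s : Finset (IrrCharacter G) := Finset.univ.filter (· ∈ principalBlock M G) with hs
  have hχ : ∀ χ ∈ s, IsIrrCharacter G (χ : G → ℂ) := fun χ _ => χ.2
  have h2 : ∀ r, ¬ p ∣ orderOf r → ∀ u ∈ H, u ≠ 1 →
      ∑ χ ∈ s, (χ : G → ℂ) r * conj ((χ : G → ℂ) u) = 0 := fun r hr u hu hu1 =>
    sum_block_mul_conj_eq_zero hM (isPBlock_principalBlock M) hr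
      (dvd_orderOf_of_pElt (pElt_of_mem hp.out hH hu) hu1)
  have h3 := identity h hH hab hχ
    (fun χ hχ => P1_principal hM hH hab hloc (Finset.mem_filter.1 hχ).2) h2
  have h4 := numeric (i₀ := irrOne G) (q := Nat.card H)
    (Finset.mem_filter.2 ⟨Finset.mem_univ _, irrOne_mem_principalBlock hM⟩)
    (n := fun χ : IrrCharacter G => (charDegree (χ : G → ℂ) : ℝ))
    (a := fun χ : IrrCharacter G => av H χ) ?_ ?_ (by exact_mod_cast three_le hp2 hH h1)
    (fun χ _ => by exact_mod_cast χ.2.charDegree_pos) ?_ h3 (sum_deg_av hχ h2)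
  · rw [sum_av_sq hχ] at h4
    exact h4
  · have : charDegree (irrOne G : G → ℂ) = 1 := charDegree_eq_of_apply_one (by simp)
    simp only [this, Nat.cast_one]
  · simp [av]
  · intro χ _ hne
    obtain ⟨m, hm, hle⟩ := half hp2 hX hY hXY hH hab χ.2 fun e => hne (Subtype.ext e)
    rw [av_eq χ.2.isCharacter hm]
    have h5 : (2 : ℝ) * m ≤ charDegree (χ : G → ℂ) := by exact_mod_cast hle
    have hq : (0 : ℝ) < Nat.card H := by exact_mod_cast Nat.card_pos
    nlinarith

/-- In a minimal counterexample `H` is a Sylow subgroup in the centre of its normalizer. -/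
theorem syl_of_min [Finite G] (hp2 : p ≠ 2) (h : XCl H) (hH : IsPGroup p H)
    (hab : IsMulCommutative H) (h1 : H ≠ ⊥) (hloc : ∀ u ∈ H, u ≠ 1 → Good H (ncl 𝐂[u] H))
    (hX : Good H X) (hY : Good H Y) (hXY : X ⊔ Y = ⊤) : 𝐍(H) ≤ 𝐂(H) ∧ Syl p H ⊤ := by
  classical
  have := Fintype.ofFinite G
  obtain ⟨M, hM⟩ := exists_isPModular hp.out
  have key := sum_col_lt hM hp2 h hH hab h1 hloc hX hY hXY
  set S := Finset.univ.erase (1 : H) with hS
  have hq : (3 : ℝ) ≤ Nat.card H := by exact_mod_cast three_le hp2 hH h1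
  have hSc : (S.card : ℝ) = Nat.card H - 1 := by
    rw [hS, Finset.card_erase_of_mem (Finset.mem_univ _), Finset.card_univ,
      ← Nat.card_eq_fintype_card, Nat.cast_sub Nat.card_pos, Nat.cast_one]
  have hpe : ∀ u : H, ∃ k : ℕ, orderOf (u : G) = p ^ k := fun u => pElt_of_mem hp.out hH u.2
  have hne : ∀ u ∈ S, (u : G) ≠ 1 := fun u hu e => Finset.ne_of_mem_erase hu (Subtype.ext e)
  have hd : ∀ u ∈ S, (Nat.card H : ℝ) ≤ col M (u : G) u := fun u hu =>
    col_self hM (hpe u) (hne u hu) hH ((abelian_cent hab).trans (cent_le_cent1 u.2))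
  have hd1 : ∀ u ∈ S, col M (u : G) u ≤ ∑ v ∈ S, col M (u : G) v := fun u hu =>
    Finset.single_le_sum (f := fun v : H => col M (u : G) v)
      (fun v _ => col_nonneg hM (hpe u) (hpe v)) hu
  have hd2 : ∀ u ∈ S, ∀ v ∈ S, u ≠ v → IsConj (u : G) v →
      2 * (Nat.card H : ℝ) ≤ ∑ v ∈ S, col M (u : G) v := fun u hu v hv huv hc => by
    have := Finset.add_le_sum (f := fun v : H => col M (u : G) v)
      (fun v _ => col_nonneg hM (hpe u) (hpe v)) hu hv huv
    rw [col_conj hc] at this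
    linarith [hd u hu]
  have hN : 𝐍(H) ≤ 𝐂(H) := by
    intro n hn
    rw [mem_cent]
    intro u hu
    by_contra hc
    let v : H := ⟨n * u * n⁻¹, conj_mem_of_norm hn hu⟩
    have huv : (⟨u, hu⟩ : H) ≠ v := fun e => hc (by
      have : u = n * u * n⁻¹ := congrArg Subtype.val e
      conv_lhs => rw [this]
      group)
    have hu1 : (⟨u, hu⟩ : H) ∈ S := Finset.mem_erase.2 ⟨fun e => hc (by
      have : u = 1 := congrArg Subtype.val e
      simp [this]), Finset.mem_univ _⟩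
    have hv1 : v ∈ S := Finset.mem_erase.2 ⟨fun e => hc (by
      have : n * u * n⁻¹ = 1 := congrArg Subtype.val e
      rw [conj_eq_one_iff] at this
      simp [this]), Finset.mem_univ _⟩
    have hj : IsConj u (v : G) := isConj_iff.2 ⟨n, rfl⟩
    have h2 := Finset.add_le_sum (f := fun u : H => ∑ v ∈ S, col M (u : G) v - Nat.card H)
      (fun u hu => sub_nonneg.2 ((hd u hu).trans (hd1 u hu))) hu1 hv1 huv
    rw [Finset.sum_sub_distrib, Finset.sum_const, nsmul_eq_mul, hSc] at h2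
    have h3 := hd2 _ hu1 _ hv1 huv hj
    have h4 := hd2 _ hv1 _ hu1 huv.symm hj.symm
    simp only at h2 h3
    linarith
  refine ⟨hN, Syl.of_norm ?_⟩
  obtain ⟨P, hP, hHP⟩ := Syl.exists_ge hH (le_inf le_top (le_norm H) : H ≤ ⊤ ⊓ 𝐍(H))
  by_cases hPH : P ≤ H
  · exact hP.of_card_le' hH (hHP.trans hP.le) (card_le_of_le hPH)
  exfalso
  have h2 : (p : ℝ) * Nat.card H ≤ Nat.card P := by exact_mod_cast mul_card_le hP.pgroup hHP hPH
  have h3 : (3 : ℝ) ≤ p := by
    have := hp.out.two_le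
    exact_mod_cast (by omega : 3 ≤ p)
  have h4 := Finset.card_nsmul_le_sum S (fun u => ∑ v ∈ S, col M (u : G) v) (3 * Nat.card H)
    fun u hu => by
      have := col_self hM (hpe u) (hne u hu) hP.pgroup
        ((hP.le.trans inf_le_right).trans (hN.trans (cent_le_cent1 u.2)))
      nlinarith [hd1 u hu]
  rw [nsmul_eq_mul, hSc] at h4
  nlinarith

end Cfsg.Lib.XC
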